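import Cfsg.Agent.LieM.HKK
import Mathlib.Data.Set.Card

/-! Lie rings: a quantitative Engel–Jacobson lemma for solvable rings and Kreknin's theorem for gradings whose
zero component acts nilpotently (Shalev, Khukhro). -/

set_option autoImplicit false

namespace Cfsg.Agent.Shum

open Cfsg.Agent.LieM
open scoped TensorProduct

variable {L : Type*} [LieRing L] {S S' T T' V W M : AddSubgroup L} {x y : L}

/-- bracket of additive subgroups -/
def bb (S T : AddSubgroup L) : AddSubgroup L := AddSubgroup.closure {z | ∃ x ∈ S, ∃ y ∈ T, z = ⁅x, y⁆}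

theorem lie_mem_bb (hx : x ∈ S) (hy : y ∈ T) : ⁅x, y⁆ ∈ bb S T := AddSubgroup.subset_closure ⟨x, hx, y, hy, rfl⟩

theorem bb_le (h : ∀ x ∈ S, ∀ y ∈ T, ⁅x, y⁆ ∈ V) : bb S T ≤ V :=
  (AddSubgroup.closure_le _).2 fun _ ⟨x, hx, y, hy, e⟩ => e ▸ h x hx y hy

theorem bb_mono (h : S ≤ S') (h' : T ≤ T') : bb S T ≤ bb S' T' := bb_le fun _ hx _ hy => lie_mem_bb (h hx) (h' hy)

/-- left multiplication -/
def adL (m : L) : L →+ L := AddMonoidHom.mk' (fun z => ⁅m, z⁆) fun a b => lie_add m a b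

theorem bb_closure_le {s t : Set L} (hS : S ≤ AddSubgroup.closure s) (hT : T ≤ AddSubgroup.closure t)
    (h : ∀ x ∈ s, ∀ y ∈ t, ⁅x, y⁆ ∈ V) : bb S T ≤ V := by
  refine bb_le fun x hx y hy => ?_
  have h1 : ∀ x ∈ s, AddSubgroup.closure t ≤ V.comap (adL x) := fun x hx =>
    (AddSubgroup.closure_le _).2 fun y hy => h x hx y hy
  have h2 : AddSubgroup.closure s ≤ V.comap (adR y) := (AddSubgroup.closure_le _).2 fun x hx => h1 x hx (hT hy)
  exact h2 (hS hx)

theorem bb_sup_le (h : bb S T ≤ V) (h' : bb S' T ≤ V) : bb (S ⊔ S') T ≤ V := by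
  refine bb_le fun x hx y hy => ?_
  have : S ⊔ S' ≤ V.comap (adR y) := sup_le (fun x hx => h (lie_mem_bb hx hy)) fun x hx => h' (lie_mem_bb hx hy)
  exact this hx

theorem bb_iSup_left {ι : Sort*} {U : ι → AddSubgroup L} (h : ∀ i, bb (U i) T ≤ V) : bb (⨆ i, U i) T ≤ V := by
  refine bb_le fun x hx y hy => ?_
  have : ⨆ i, U i ≤ V.comap (adR y) := iSup_le fun i x hx => h i (lie_mem_bb hx hy)
  exact this hx

theorem bb_iSup_right {ι : Sort*} {U : ι → AddSubgroup L} (h : ∀ i, bb S (U i) ≤ V) : bb S (⨆ i, U i) ≤ V := by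
  refine bb_le fun x hx y hy => ?_
  have : ⨆ i, U i ≤ V.comap (adL x) := iSup_le fun i y hy => h i (lie_mem_bb hx hy)
  exact this hy

theorem bb_bb_le (h1 : bb (bb W M) S ≤ V) (h2 : bb W (bb S M) ≤ V) : bb (bb W S) M ≤ V := by
  refine bb_closure_le le_rfl (AddSubgroup.closure_eq M).ge ?_
  rintro _ ⟨w, hw, s, hs, rfl⟩ m hm
  have e : ⁅⁅w, s⁆, m⁆ = ⁅w, ⁅s, m⁆⁆ + ⁅⁅w, m⁆, s⁆ := by rw [lie_lie, ← lie_skew ⁅w, m⁆ s]; abel
  rw [e]
  exact add_mem (h2 (lie_mem_bb hw (lie_mem_bb hs hm))) (h1 (lie_mem_bb (lie_mem_bb hw hm) hs))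

/-- `W, ⁅W, S⁆, ⁅W, S, S⁆, …` -/
def act (W S : AddSubgroup L) : ℕ → AddSubgroup L
  | 0 => W
  | n + 1 => bb (act W S n) S

theorem act_mono (h : V ≤ W) (h' : S ≤ T) (n : ℕ) : act V S n ≤ act W T n := by
  induction n with
  | zero => exact h
  | succ n ih => exact bb_mono ih h'

theorem act_add (W S : AddSubgroup L) (m n : ℕ) : act W S (m + n) = act (act W S m) S n := by
  induction n with
  | zero => rfl
  | succ n ih => rw [← add_assoc, act, ih]; rfl

theorem act_chain (X : ℕ → AddSubgroup L) (n c : ℕ) (h : ∀ i, act (X i) S n ≤ X (i + 1)) :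
    act (X 0) S (n * c) ≤ X c := by
  induction c with
  | zero => exact le_rfl
  | succ c ih => rw [Nat.mul_succ, act_add]; exact (act_mono ih le_rfl n).trans (h c)

theorem act_iSup {ι : Sort*} (U : ι → AddSubgroup L) (n : ℕ) : act (⨆ i, U i) S n ≤ ⨆ i, act (U i) S n := by
  induction n with
  | zero => exact le_rfl
  | succ n ih => exact (bb_mono ih le_rfl).trans (bb_iSup_left fun i => le_iSup (fun i => act (U i) S (n + 1)) i)

theorem act_ab {c : ℕ} (𝒰 : Set (AddSubgroup L)) (hc : ∀ U ∈ 𝒰, act ⊤ U c = ⊥) (hM : M ≤ ⨆ U ∈ 𝒰, M ⊓ U)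
    (F : Finset (AddSubgroup L)) : (F : Set (AddSubgroup L)) ⊆ 𝒰 → ∀ W T : AddSubgroup L, bb W M ≤ W → bb T M ≤ T →
      bb W (bb M M) ≤ T → bb T (bb M M) ≤ T → (∀ U ∈ 𝒰, U ∉ F → bb W (M ⊓ U) ≤ T) → act W M (c ^ F.card) ≤ T := by
  classical
  induction F using Finset.induction_on with
  | empty =>
    intro _ W T _ _ _ _ h
    exact (bb_mono le_rfl hM).trans (bb_iSup_right fun U => bb_iSup_right fun hU => h U hU (by simp))
  | insert U F hU ih =>
    intro hF W T hW hT h1 h2 h3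
    rw [Finset.coe_insert, Set.insert_subset_iff] at hF
    let X : ℕ → AddSubgroup L := fun i => act W (M ⊓ U) i ⊔ T
    have hXW : ∀ i, X i ≤ W ⊔ T := fun i => sup_le_sup_right (by
      induction i with
      | zero => exact le_rfl
      | succ i ih => exact (bb_mono ih inf_le_left).trans hW) _
    have hX1 : ∀ i, bb (X i) (bb M M) ≤ T := fun i => (bb_mono (hXW i) le_rfl).trans (bb_sup_le h1 h2)
    have hXU : ∀ i, bb (X i) (M ⊓ U) ≤ X (i + 1) := fun i =>
      bb_sup_le le_sup_left ((bb_mono le_rfl inf_le_left).trans (hT.trans le_sup_right))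
    have hXM : ∀ i, bb (X i) M ≤ X i := fun i => by
      induction i with
      | zero => exact bb_sup_le (hW.trans le_sup_left) (hT.trans le_sup_right)
      | succ i ih =>
        refine bb_sup_le (bb_bb_le ?_ ?_) (hT.trans le_sup_right)
        · exact (bb_mono ((bb_mono le_sup_left le_rfl).trans ih) le_rfl).trans (hXU i)
        · exact (bb_mono le_sup_left (bb_mono inf_le_left le_rfl)).trans ((hX1 i).trans le_sup_right)
    have h4 := act_chain (S := M) X (c ^ F.card) c fun i => ih hF.2 (X i) (X (i + 1)) (hXM i) (hXM _)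
      ((hX1 i).trans le_sup_right) ((hX1 _).trans le_sup_right) fun U' hU' hF' => by
        by_cases e : U' = U
        · rw [e]; exact hXU i
        · exact (bb_mono (hXW i) le_rfl).trans ((bb_sup_le (h3 U' hU' (by simp [e, hF']))
            ((bb_mono le_rfl inf_le_left).trans hT)).trans le_sup_right)
    rw [Finset.card_insert_of_notMem hU, pow_succ]
    refine (act_mono le_sup_left le_rfl _).trans (h4.trans (sup_le ?_ le_rfl))
    exact (act_mono le_top inf_le_right c).trans ((hc U hF.1).le.trans bot_le)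

/-- derived series -/
def ld (M : AddSubgroup L) : ℕ → AddSubgroup L
  | 0 => M
  | n + 1 => bb (ld M n) (ld M n)

theorem ld_succ' (M : AddSubgroup L) (n : ℕ) : ld M (n + 1) = ld (bb M M) n := by
  induction n with
  | zero => rfl
  | succ n ih => rw [ld, ih]; rfl

theorem act_bot_succ (hn : act ⊤ S 1 = ⊥) {n : ℕ} (h : 0 < n) : act ⊤ S n = ⊥ := by
  obtain ⟨n, rfl⟩ : ∃ k, n = k + 1 := ⟨n - 1, by omega⟩
  exact le_bot_iff.1 ((bb_mono le_top le_rfl).trans hn.le)

theorem solv_EJ {c s : ℕ} (hc0 : 0 < c) (𝒰 : Set (AddSubgroup L)) (hf : 𝒰.Finite) (hs : 𝒰.ncard ≤ s)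
    (hc : ∀ U ∈ 𝒰, act ⊤ U c = ⊥) (t : ℕ) : ∀ M : AddSubgroup L, bb M M ≤ M → ld M t = ⊥ →
      (∀ i, ld M i ≤ ⨆ U ∈ 𝒰, ld M i ⊓ U) → act ⊤ M ((c ^ s) ^ t) = ⊥ := by
  induction t with
  | zero =>
    intro M _ h _
    exact le_bot_iff.1 (bb_le fun x _ y hy => by
      have : y ∈ (⊥ : AddSubgroup L) := h ▸ hy
      rw [AddSubgroup.mem_bot.1 this, lie_zero]; exact zero_mem _)
  | succ t ih =>
    intro M hM h hU
    have h1 := ih (bb M M) (bb_mono hM hM) (by rwa [← ld_succ']) fun i => by rw [← ld_succ']; exact hU _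
    have hI : bb (bb M M) M ≤ bb M M := bb_mono hM le_rfl
    have hX : ∀ j, bb (act ⊤ (bb M M) j) M ≤ act ⊤ (bb M M) j := fun j => by
      induction j with
      | zero => exact le_top
      | succ j ih => exact bb_bb_le (bb_mono ih le_rfl) (bb_mono le_rfl hI)
    have h2 := act_chain (S := M) (act ⊤ (bb M M)) (c ^ s) ((c ^ s) ^ t) fun j => by
      have e1 := act_ab 𝒰 hc (hU 0) hf.toFinset (by simp) _ _ (hX j) (hX (j + 1)) le_rfl
        ((bb_mono le_rfl hM).trans (hX _)) fun U hU hF => absurd (hf.mem_toFinset.2 hU) hF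
      obtain ⟨r, hr⟩ := Nat.exists_eq_add_of_le (Nat.pow_le_pow_right hc0
        (show hf.toFinset.card ≤ s by rwa [← Set.ncard_eq_toFinset_card _ hf]))
      rw [hr, act_add]
      refine (act_mono e1 le_rfl r).trans ?_
      clear hr
      induction r with
      | zero => exact le_rfl
      | succ r ih => exact (bb_mono ih le_rfl).trans (hX _)
    rw [h1, ← pow_succ'] at h2
    exact le_bot_iff.1 h2

section graded

variable {K : Type*} [LieRing K] {p : ℕ}

/-- the derived length bound -/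
def kf (m : ℕ) : ℕ → ℕ
  | 0 => 0
  | k + 1 => m * (kf m k + 1) + kf m k

theorem gen_lie_zero {M : Fam p K} (hM : br M M ≤ M) {n : ℕ} {j : ZMod p} {x y : K} (hx : x ∈ gen M n j)
    (hy : y ∈ M 0) : ⁅x, y⁆ ∈ gen M n j := by
  change Gen M n j x at hx
  induction hx with
  | base hj hx => exact Gen.base hj (by simpa using hM _ (lie_mem_br hx hy))
  | zero => rw [zero_lie]; exact zero_mem _
  | add _ _ i1 i2 => rw [add_lie]; exact add_mem i1 i2
  | neg _ i1 => rw [neg_lie]; exact neg_mem i1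
  | @lie a b u v h1 h2 i1 i2 =>
    have e : ⁅⁅u, v⁆, y⁆ = ⁅u, ⁅v, y⁆⁆ + ⁅⁅u, y⁆, v⁆ := by rw [lie_lie, ← lie_skew ⁅u, y⁆ v]; abel
    rw [e]
    exact add_mem (Gen.lie h1 i2) (Gen.lie i1 h2)

theorem der_le_gen' [NeZero p] {m : ℕ} (V : ℕ → AddSubgroup K) (hV0 : V 0 = ⊤) (hVm : V m = ⊥) (n : ℕ) :
    ∀ M : Fam p K, br M M ≤ M → (∀ t x y, x ∈ V t → y ∈ M 0 → ⁅x, y⁆ ∈ V (t + 1)) → der M (kf m n) ≤ gen M n := by
  induction n with
  | zero => exact fun M _ _ j x hx => Gen.base (Nat.zero_le _) hx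
  | succ n ih =>
    intro M hM hV
    rw [kf, der_add]
    refine (ih _ (der_closed hM _) fun t x y hx hy => hV t x y hx (der_le hM _ 0 hy)).trans
      (gen_le gen_closed fun k hk => ?_)
    rcases hk.eq_or_lt with hk | hk
    swap
    · exact fun x hx => Gen.base hk (der_le hM _ k hx)
    have key : ∀ t, der M (t * (kf m n + 1)) k ≤ (V t ⊓ M k) ⊔ gen M (n + 1) k := fun t => by
      induction t with
      | zero => rw [zero_mul, hV0, top_inf_eq]; exact le_sup_left
      | succ t iht =>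
        set E := der M (t * (kf m n + 1))
        have hE : br E E ≤ E := der_closed hM _
        have hEM : E ≤ M := der_le hM _
        rw [Nat.succ_mul, der_add, der]
        refine (br_mono (der_le hE _) (ih E hE fun t x y hx hy => hV t x y hx (hEM 0 hy)) k).trans
          ((br_gen_le hE k).trans ((AddSubgroup.closure_le _).2 ?_))
        rintro _ ⟨a, b, u, v, hu, hv, e, rfl⟩
        by_cases hb : n ≤ b.val
        swap
        · rw [top, if_neg hb, AddSubgroup.mem_bot] at hv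
          rw [hv, lie_zero]; exact zero_mem _
        rw [top, if_pos hb] at hv
        by_cases ha : a = 0
        · rw [ha, zero_add] at e
          rw [ha] at hu
          rw [e] at hv
          obtain ⟨w, hw, g, hg, rfl⟩ := AddSubgroup.mem_sup.1 (iht hv)
          rw [← lie_skew, add_lie]
          exact neg_mem (add_mem (AddSubgroup.mem_sup_left ⟨hV t w u hw.1 (hEM 0 hu), by
            simpa using hM _ (lie_mem_br hw.2 (hEM 0 hu))⟩) (AddSubgroup.mem_sup_right (gen_lie_zero hM hg (hEM 0 hu))))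
        have h1 := ZMod.val_add a b
        rw [e] at h1
        have h2 := ZMod.val_lt a
        have h3 := ZMod.val_lt b
        have h4 : a.val ≠ 0 := fun h => ha ((ZMod.val_eq_zero a).1 h)
        have h5 : p ≤ a.val + b.val := by
          by_contra h
          rw [Nat.mod_eq_of_lt (by omega)] at h1
          omega
        rw [Nat.mod_eq_sub_mod h5, Nat.mod_eq_of_lt (by omega)] at h1
        refine AddSubgroup.mem_sup_right ?_
        rw [← e]
        exact Gen.lie (.base (by omega) (hEM _ hu)) (.base (by omega) (hEM _ hv))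
    have := key m
    rwa [hVm, bot_inf_eq, bot_sup_eq] at this

theorem der_eq_bot' [NeZero p] {m : ℕ} (V : ℕ → AddSubgroup K) (hV0 : V 0 = ⊤) (hVm : V m = ⊥) {M : Fam p K}
    (hM : br M M ≤ M) (hV : ∀ t x y, x ∈ V t → y ∈ M 0 → ⁅x, y⁆ ∈ V (t + 1)) : der M (kf m p) = ⊥ := by
  refine le_bot_iff.1 ((der_le_gen' V hV0 hVm _ M hM hV).trans (gen_le (br_le fun i j x y hx _ => ?_) fun j hj => ?_))
  · have hx : x = 0 := hx
    rw [hx, zero_lie]; exact zero_mem _
  · have := ZMod.val_lt j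
    omega

theorem krek_aux [Fact p.Prime] {A : Type*} [CommRing A] [LieAlgebra A K] (χ : ZMod p → A)
    (χ0 : χ 0 = 1) (χa : ∀ a b, χ (a + b) = χ a * χ b) (χs : ∑ i, χ i = 0) (ψ : ZMod p → K →ₗ[A] K)
    (ψ0 : ∀ x, ψ 0 x = x) (ψa : ∀ a b x, ψ (a + b) x = ψ a (ψ b x)) (ψl : ∀ a x y, ψ a ⁅x, y⁆ = ⁅ψ a x, ψ a y⁆)
    (N : ℕ) (hN : ∀ x : K, N • p • x = x) {m : ℕ} (V : ℕ → AddSubgroup K) (hV0 : V 0 = ⊤) (hVm : V m = ⊥)
    (hV : ∀ t x y, x ∈ V t → ⁅x, ∑ j, ψ j y⁆ ∈ V (t + 1)) : ld (⊤ : AddSubgroup K) (kf m p) = ⊥ := by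
  let e : ZMod p → K →ₗ[A] K := fun i => ∑ j, χ (i * j) • ψ j
  have he : ∀ i x, e i x = ∑ j, χ (i * j) • ψ j x := fun i x => by simp [e]
  have he1 : ∀ a j y, χ (j * a) • ψ a (e j y) = e j y := fun a j y => by
    rw [he, map_sum, Finset.smul_sum, ← Equiv.sum_comp (Equiv.addLeft a) fun b => χ (j * b) • ψ b y]
    refine Finset.sum_congr rfl fun b _ => ?_
    rw [Equiv.coe_addLeft, map_smul, smul_smul, mul_add, χa, ψa]
  have he2 : ∀ i j x y, ⁅e i x, e j y⁆ = e (i + j) ⁅x, e j y⁆ := fun i j x y => by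
    rw [he i, he (i + j), sum_lie]
    refine Finset.sum_congr rfl fun a _ => ?_
    rw [ψl, add_mul, χa, mul_smul, ← lie_smul, he1, smul_lie]
  have he3 : ∀ x, ∑ i, e i x = p • x := fun x => by
    simp only [he]
    rw [Finset.sum_comm, Finset.sum_eq_single 0]
    · simp [χ0, ψ0]
    · intro j _ hj
      rw [← Finset.sum_smul, show ∑ i, χ (i * j) = 0 from (Equiv.sum_comp (Equiv.mulRight₀ j hj) χ).trans χs, zero_smul]
    · simp
  let M : Fam p K := fun i => (e i).toAddMonoidHom.range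
  have hM : br M M ≤ M := br_le (by
    rintro i j _ _ ⟨x, rfl⟩ ⟨y, rfl⟩
    exact ⟨⁅x, e j y⁆, (he2 i j x y).symm⟩)
  have h0 := der_eq_bot' V hV0 hVm hM (by
    rintro t x _ hx ⟨y, rfl⟩
    have := hV t x y hx
    simpa [he, χ0] using this)
  have h1 : ∀ n, ld (⊤ : AddSubgroup K) n ≤ ⨆ i, der M n i := fun n => by
    induction n with
    | zero =>
      intro x _
      rw [← hN x, ← he3]
      exact nsmul_mem (sum_mem fun i _ => AddSubgroup.mem_iSup_of_mem i (show e i x ∈ M i from ⟨x, rfl⟩)) _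
    | succ n ih =>
      exact (bb_mono ih ih).trans (bb_iSup_left fun i => bb_iSup_right fun j => bb_le fun x hx y hy =>
        AddSubgroup.mem_iSup_of_mem (i + j) (lie_mem_br hx hy))
  have := h1 (kf m p)
  rw [h0] at this
  simpa using this

end graded

theorem map_ld {K : Type*} [LieRing K] (f : L →+ K) (hf : ∀ x y, f ⁅x, y⁆ = ⁅f x, f y⁆) (n : ℕ) :
    ld (⊤ : AddSubgroup L) n ≤ (ld (⊤ : AddSubgroup K) n).comap f := by
  induction n with
  | zero => exact fun _ _ => trivial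
  | succ n ih =>
    refine bb_le fun x hx y hy => ?_
    show f ⁅x, y⁆ ∈ ld ⊤ (n + 1)
    rw [hf]; exact lie_mem_bb (ih hx) (ih hy)

theorem krek {p : ℕ} [hp : Fact p.Prime] (φ : L →+ L) (hφ : ∀ x y, φ ⁅x, y⁆ = ⁅φ x, φ y⁆) (hφp : ∀ x, φ^[p] x = x)
    (N : ℕ) (hN : ∀ x : L, N • p • x = x) {m : ℕ} (hS : ∀ y, ∑ j ∈ Finset.range p, φ^[j] y ∈ S)
    (hm : act ⊤ S m = ⊥) : ld (⊤ : AddSubgroup L) (kf m p) = ⊥ := by
  obtain ⟨A, _, χ, r, χ0, χa, χs, r1⟩ := exists_cyc p
  let Φ : Module.End ℤ L := φ.toIntLinearMap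
  have hΦ : ∀ j x, (Φ ^ j) x = φ^[j] x := fun j x => by rw [Module.End.pow_apply]; rfl
  have hΦp : Φ ^ p = 1 := LinearMap.ext fun x => (hΦ p x).trans (hφp x)
  have hl : ∀ j x y, φ^[j] ⁅x, y⁆ = ⁅φ^[j] x, φ^[j] y⁆ := fun j => by
    induction j with
    | zero => intros; rfl
    | succ j ih => intro x y; simp only [Function.iterate_succ_apply', ih, hφ]
  let t : L →+ A ⊗[ℤ] L := (TensorProduct.mk ℤ A L 1).toAddMonoidHom
  let V : ℕ → AddSubgroup (A ⊗[ℤ] L) := fun n => AddSubgroup.closure {z | ∃ s : A, ∃ x ∈ act ⊤ S n, z = s ⊗ₜ x}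
  have := krek_aux (K := A ⊗[ℤ] L) χ χ0 χa χs (fun j => (Φ ^ j.val).baseChange A) (fun x => by simp)
    (fun a b x => by
      rw [ZMod.val_add, ← pow_eq_pow_mod _ hΦp, pow_add, LinearMap.baseChange_mul]; rfl)
    (fun a x y => by
      induction x with
      | zero => simp
      | add u v hu hv => simp only [add_lie, map_add, hu, hv]
      | tmul s u =>
        induction y with
        | zero => simp
        | add u v hu hv => simp only [lie_add, map_add, hu, hv]
        | tmul t v => simp [hΦ, hl]) N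
    (fun x => by
      induction x with
      | zero => simp
      | add u v hu hv => simp only [smul_add, hu, hv]
      | tmul s u => rw [← TensorProduct.tmul_smul, ← TensorProduct.tmul_smul, hN]) (m := m) V
    (by
      refine eq_top_iff.2 fun x _ => ?_
      induction x with
      | zero => exact zero_mem _
      | add u v hu hv => exact add_mem (hu trivial) (hv trivial)
      | tmul s u => exact AddSubgroup.subset_closure ⟨s, u, trivial, rfl⟩)
    (by
      refine eq_bot_iff.2 ((AddSubgroup.closure_le _).2 ?_)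
      rintro _ ⟨s, x, hx, rfl⟩
      rw [hm, AddSubgroup.mem_bot] at hx
      simp [hx])
    (fun n x y hx => by
      have : V n ≤ (V (n + 1)).comap (adR (∑ j : ZMod p, (Φ ^ j.val).baseChange A y)) := by
        refine (AddSubgroup.closure_le _).2 ?_
        rintro _ ⟨s, x, hx, rfl⟩
        show adL (s ⊗ₜ[ℤ] x) (∑ j : ZMod p, (Φ ^ j.val).baseChange A y) ∈ V (n + 1)
        induction y with
        | zero => simp only [map_zero, Finset.sum_const_zero]; exact zero_mem _
        | add u v hu hv => simp only [map_add, Finset.sum_add_distrib]; exact add_mem hu hv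
        | tmul s' u =>
          simp only [LinearMap.baseChange_tmul, hΦ]
          rw [← TensorProduct.tmul_sum, sum_zmod (fun j => φ^[j] u)]
          exact AddSubgroup.subset_closure ⟨s * s', _, lie_mem_bb hx (hS u), by simp [adL]⟩
      exact this hx)
  refine eq_bot_iff.2 fun y hy => ?_
  have h1 := map_ld t (fun x y => by simp [t]) _ hy
  rw [this, AddSubgroup.mem_comap, AddSubgroup.mem_bot] at h1
  have h2 := congrArg (fun z => TensorProduct.lid ℤ L (r.rTensor L z)) h1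
  simpa [t, r1] using h2

end Cfsg.Agent.Shum
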