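import Cfsg.Agent.Shum.Grp
import Cfsg.Agent.Shum.Lie
import Cfsg.Agent.LieM.Assoc
import Cfsg.Agent.Sig.Sf6
import Cfsg.Agent.Transfer.Hol

/-! Shumyatsky's bounds for the nilpotency class of `γ_{k-2}(G)` and `G^{(d)}` under a coprime elementary
abelian operator group. -/

set_option autoImplicit false

namespace Cfsg.Agent.Shum
open Subgroup Cfsg.Agent.BG
open scoped commutatorElement

variable {G : Type*} [Group G] {A B K S X Y Z : Subgroup G} {p : ℕ} {L : Type*} [LieRing L] {j : ℕ → G → L}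
  {Φ : G → L →+ L} {a g : G} {n : ℕ}

local notation "Γ" => Subgroup.lowerCentralSeries

/-- interface to the associated Lie ring -/
structure LI (X : Subgroup G) (j : ℕ → G → L) (Φ : G → L →+ L) : Prop where
  mul : ∀ {n a b}, a ∈ Γ X n → b ∈ Γ X n → j n (a * b) = j n a + j n b
  zero : ∀ {n a}, a ∈ Γ X n → (j n a = 0 ↔ a ∈ Γ X (n + 1))
  comm : ∀ {i k a b}, a ∈ Γ X i → b ∈ Γ X k → ⁅a, b⁆ ∈ Γ X (i + k + 1)
  lie : ∀ {i k a b}, a ∈ Γ X i → b ∈ Γ X k → ⁅j i a, j k b⁆ = j (i + k + 1) ⁅a, b⁆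
  span : ⊤ ≤ AddSubgroup.closure {z | ∃ n a, a ∈ Γ X n ∧ z = j n a}
  aut : ∀ {g n a}, g ∈ N[X] → a ∈ Γ X n → Φ g (j n a) = j n (g * a * g⁻¹)

theorem exists_LI (X : Subgroup G) : ∃ (j : ℕ → G → LieM.LG X) (Φ : G → LieM.LG X →+ LieM.LG X), LI X j Φ := by
  classical
  have hm : ∀ {n} {a : X}, a ∈ LieM.γ X n ↔ (a : G) ∈ Γ X n := fun {n a} => by
    rw [← top_subtype_lowerCentralSeries]
    exact (mem_map_iff_mem X.subtype_injective).symm
  have hx : ∀ {n a}, a ∈ Γ X n → a ∈ X := fun h => lowerCentralSeries_le_self X _ h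
  let j : ℕ → G → LieM.LG X := fun n a => if h : a ∈ X then LieM.ι n ⟨a, h⟩ else 0
  have hj : ∀ n (a : X), j n a = LieM.ι n a := fun n a => dif_pos a.2
  have hΦ : ∀ g : G, ∃ φ : LieM.LG X →+ LieM.LG X, g ∈ N[X] → ∀ n a, a ∈ Γ X n → φ (j n a) = j n (g * a * g⁻¹) :=
    fun g => by
    by_cases hg : g ∈ N[X]
    swap
    · exact ⟨0, fun h => absurd h hg⟩
    let α : X →* X := (X.normalizerMonoidHom ⟨g, hg⟩).toMonoidHom
    obtain ⟨φ, hφ⟩ := LieM.exists_lift (fun n a => LieM.ι n (α a))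
      (fun n a b ha hb => by rw [map_mul, LieM.ι_mul (LieM.map_mem_γ α ha) (LieM.map_mem_γ α hb)])
      fun n a ha => (LieM.ι_eq_zero (LieM.map_mem_γ α (LieM.γ_succ_le ha))).2 (LieM.map_mem_γ α ha)
    exact ⟨φ, fun _ n a ha => by
      rw [hj n ⟨a, hx ha⟩, hφ n _ (hm.2 ha), ← hj]; rfl⟩
  choose Φ hΦ using hΦ
  refine ⟨j, Φ, fun {n a b} ha hb => ?_, fun {n a} ha => ?_, fun {i k a b} ha hb => ?_, fun {i k a b} ha hb => ?_,
    fun x _ => ?_, fun hg ha => hΦ _ hg _ _ ha⟩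
  · rw [hj n ⟨a, hx ha⟩, hj n ⟨b, hx hb⟩, ← LieM.ι_mul (hm.2 ha) (hm.2 hb), ← hj]; rfl
  · rw [hj n ⟨a, hx ha⟩, LieM.ι_eq_zero (hm.2 ha), hm]
  · exact hm.1 (LieM.γ_comm (a := ⟨a, hx ha⟩) (b := ⟨b, hx hb⟩) (hm.2 ha) (hm.2 hb))
  · rw [hj i ⟨a, hx ha⟩, hj k ⟨b, hx hb⟩, LieM.ι_lie (hm.2 ha) (hm.2 hb), ← hj]; rfl
  · exact LieM.LG.ind (P := fun x => x ∈ AddSubgroup.closure {z | ∃ n a, a ∈ Γ X n ∧ z = j n a}) (zero_mem _)
      (fun n a ha => AddSubgroup.subset_closure ⟨n, a, hm.1 ha, (hj n a).symm⟩) (fun _ _ => add_mem) x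

theorem LI.one (h : LI X j Φ) (n : ℕ) : j n 1 = 0 := (h.zero (one_mem _)).2 (one_mem _)

theorem LI.inv (h : LI X j Φ) (ha : a ∈ Γ X n) : j n a⁻¹ = -j n a :=
  eq_neg_of_add_eq_zero_left (by rw [← h.mul (inv_mem ha) ha, inv_mul_cancel, h.one])

theorem LI.pow (h : LI X j Φ) (ha : a ∈ Γ X n) (k : ℕ) : j n (a ^ k) = k • j n a := by
  induction k with
  | zero => simp [h.one]
  | succ k ih => rw [pow_succ, h.mul (pow_mem ha k) ha, ih, succ_nsmul]

theorem LI.ext (h : LI X j Φ) {M : Type*} [AddCommGroup M] {f f' : L →+ M}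
    (e : ∀ n a, a ∈ Γ X n → f (j n a) = f' (j n a)) (x : L) : f x = f' x :=
  AddMonoidHom.eqOn_closure (f := f) (g := f') (by rintro _ ⟨n, a, ha, rfl⟩; exact e n a ha) (h.span (AddSubgroup.mem_top x))

theorem conj_mem_lcs (hg : g ∈ N[X]) (ha : a ∈ Γ X n) : g * a * g⁻¹ ∈ Γ X n :=
  le_normalizer_iff.1 (norms_lcs (zpowers_le.2 hg) n) g (mem_zpowers g) a ha

theorem LI.map_lie (h : LI X j Φ) (hg : g ∈ N[X]) (x y : L) : Φ g ⁅x, y⁆ = ⁅Φ g x, Φ g y⁆ := by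
  refine h.ext (f := (Φ g).comp (LieM.adR y)) (f' := (LieM.adR (Φ g y)).comp (Φ g)) (fun i a ha => ?_) x
  refine h.ext (f := (Φ g).comp (adL (j i a))) (f' := (adL (Φ g (j i a))).comp (Φ g)) (fun k b hb => ?_) y
  change Φ g ⁅j i a, j k b⁆ = ⁅Φ g (j i a), Φ g (j k b)⁆
  rw [h.lie ha hb, h.aut hg ha, h.aut hg hb, h.aut hg (h.comm ha hb), h.lie (conj_mem_lcs hg ha) (conj_mem_lcs hg hb),
    conjugate_commutatorElement]

/-- the graded subring attached to a subgroup -/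
def LL (X : Subgroup G) (j : ℕ → G → L) (Y : Subgroup G) : AddSubgroup L :=
  AddSubgroup.closure {z | ∃ n a, a ∈ Γ X n ∧ a ∈ Y ∧ z = j n a}

theorem mem_LL (ha : a ∈ Γ X n) (hY : a ∈ Y) : j n a ∈ LL X j Y := AddSubgroup.subset_closure ⟨n, a, ha, hY, rfl⟩

theorem LL_mono (h : Y ≤ Z) : LL X j Y ≤ LL X j Z :=
  AddSubgroup.closure_mono fun _ ⟨n, a, ha, hY, e⟩ => ⟨n, a, ha, h hY, e⟩

theorem LI.bb_LL (h : LI X j Φ) (Y Z : Subgroup G) : bb (LL X j Y) (LL X j Z) ≤ LL X j ⁅Y, Z⁆ := by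
  refine bb_closure_le le_rfl le_rfl ?_
  rintro _ ⟨i, a, ha, hY, rfl⟩ _ ⟨k, b, hb, hZ, rfl⟩
  rw [h.lie ha hb]
  exact mem_LL (h.comm ha hb) (commutator_mem_commutator hY hZ)

theorem LI.LL_bot (h : LI X j Φ) : LL X j ⊥ = ⊥ := by
  refine eq_bot_iff.2 ((AddSubgroup.closure_le _).2 ?_)
  rintro _ ⟨n, a, -, hY, rfl⟩
  rw [mem_bot.1 hY, h.one]; exact zero_mem _

/-- preimage of an additive subgroup in a term of the series -/
def LI.pre (h : LI X j Φ) (n : ℕ) (D : AddSubgroup L) : Subgroup G where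
  carrier := {a | a ∈ Γ X n ∧ j n a ∈ D}
  one_mem' := ⟨one_mem _, by rw [h.one]; exact zero_mem _⟩
  mul_mem' := fun ha hb => ⟨mul_mem ha.1 hb.1, by rw [h.mul ha.1 hb.1]; exact add_mem ha.2 hb.2⟩
  inv_mem' := fun ha => ⟨inv_mem ha.1, by rw [h.inv ha.1]; exact neg_mem ha.2⟩

theorem LI.top_le (h : LI X j Φ) {D : AddSubgroup L} (e : ∀ n, Γ X n ≤ h.pre n D) : ⊤ ≤ D :=
  h.span.trans ((AddSubgroup.closure_le _).2 (by rintro _ ⟨n, a, ha, rfl⟩; exact (e n ha).2))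

/-- spanned by special homogeneous elements -/
def SG (X : Subgroup G) (j : ℕ → G → L) (𝒜 : Set (Subgroup G)) (D : AddSubgroup L) : AddSubgroup L :=
  AddSubgroup.closure {z | z ∈ D ∧ ∃ n a, a ∈ Γ X n ∧ (∃ S ∈ 𝒜, a ∈ S) ∧ z = j n a}

theorem SG_le (𝒜 : Set (Subgroup G)) (D : AddSubgroup L) : SG X j 𝒜 D ≤ ⨆ U ∈ LL X j '' 𝒜, D ⊓ U := by
  refine (AddSubgroup.closure_le _).2 ?_
  rintro _ ⟨hz, n, a, ha, ⟨S, hS, hs⟩, rfl⟩
  exact le_iSup₂_of_le (f := fun U (_ : U ∈ LL X j '' 𝒜) => D ⊓ U) _ ⟨S, hS, rfl⟩ le_rfl ⟨hz, mem_LL ha hs⟩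

theorem LI.iter (h : LI X j Φ) (hg : g ∈ N[X]) (ha : a ∈ Γ X n) (k : ℕ) :
    (Φ g)^[k] (j n a) = j n (g ^ k * a * (g ^ k)⁻¹) := by
  induction k with
  | zero => simp
  | succ k ih =>
    rw [Function.iterate_succ_apply', ih, h.aut hg (conj_mem_lcs (pow_mem hg k) ha)]
    congr 1
    rw [pow_succ']; group

theorem LI.tr (h : LI X j Φ) (hg : g ∈ N[X]) (hS : g ∈ N[S]) (ha : a ∈ Γ X n) (hs : a ∈ S) (k : ℕ) :
    ∃ c ∈ Γ X n ⊓ S, ∑ i ∈ Finset.range k, (Φ g)^[i] (j n a) = j n c := by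
  induction k with
  | zero => exact ⟨1, one_mem _, by simp [h.one]⟩
  | succ k ih =>
    obtain ⟨c, hc, e⟩ := ih
    have e1 := conj_mem_lcs (pow_mem hg k) ha
    exact ⟨_, mul_mem hc ⟨e1, (mem_normalizer_iff.1 (pow_mem hS k) a).1 hs⟩, by
      rw [Finset.sum_range_succ, e, h.iter hg ha, h.mul hc.1 e1]⟩

theorem LI.lcs_le (h : LI X j Φ) (n : ℕ) : Γ X n ≤ h.pre n (act ⊤ ⊤ n) := by
  induction n with
  | zero => exact fun a ha => ⟨ha, trivial⟩
  | succ n ih =>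
    refine commutator_le.2 fun a ha c hc => ⟨h.comm (k := 0) ha hc, ?_⟩
    rw [show n + 1 = n + 0 + 1 from rfl, ← h.lie (k := 0) ha hc]
    exact lie_mem_bb (ih ha).2 trivial

theorem W_true_le (b : Bool) (Y : Subgroup G) (i : ℕ) : W true Y i ≤ W b Y i := by
  induction i with
  | zero => exact le_rfl
  | succ i ih => rw [W_succ, W_succ]; exact commutator_mono ih (ih.trans (W_anti (ee_le b i)))

theorem W_false (Y : Subgroup G) (i : ℕ) : W false Y i = Γ Y i := by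
  induction i with
  | zero => rfl
  | succ i ih => rw [Subgroup.lowerCentralSeries_succ, ← ih]; rfl

theorem W_true_add (Y : Subgroup G) (i k : ℕ) : W true Y (i + k) = W true (W true Y i) k := by
  induction k with
  | zero => rfl
  | succ k ih => rw [← add_assoc, W_succ, W_succ]; simp only [ee, if_true, ih]

theorem W_true (Y : Subgroup G) (i : ℕ) : W true Y i = (derivedSeries Y i).map Y.subtype := by
  induction i with
  | zero => simp [W, ← MonoidHom.range_eq_map]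
  | succ i ih => rw [derivedSeries_succ, map_commutator, ← ih]; rfl

theorem W_true_eq_bot {b : Bool} {d c : ℕ} (h : Γ (W b Y d) c = ⊥) : W true Y (d + c) = ⊥ := by
  rw [W_true_add, eq_bot_iff, ← h, ← W_false]
  exact (W_mono (W_true_le b Y d) c).trans (W_true_le false _ c)

theorem W_map {G' : Type*} [Group G'] (f : G →* G') (b : Bool) (Y : Subgroup G) (i : ℕ) :
    (W b Y i).map f = W b (Y.map f) i :=
  W_ind (P := fun i => (W b Y i).map f = W b (Y.map f) i) b rfl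
    (fun i h h' => by rw [W_succ, W_succ, map_commutator, h, h']) i

variable [Finite G] {b : Bool} {d : ℕ}

theorem LI.sg_ld [Fact p.Prime] (h : LI X j Φ) (hA : Abelem p A) (hn : A ≤ N[K]) (hc : (#K).Coprime #A) (hXK : X ≤ K)
    (nX : A ≤ N[X]) {D : AddSubgroup L} (h1 : D ≤ SG X j {S | Sp p b A K d S} D) (h2 : ∀ g ∈ A, D ≤ D.comap (Φ g))
    (i : ℕ) : ld D i ≤ SG X j {S | Sp p b A K d S} (ld D i) ∧ ∀ g ∈ A, ld D i ≤ (ld D i).comap (Φ g) := by
  induction i with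
  | zero => exact ⟨h1, h2⟩
  | succ i ih =>
    have h3 : ∀ g ∈ A, ld D (i + 1) ≤ (ld D (i + 1)).comap (Φ g) := fun g hg => bb_le fun x hx y hy => by
      rw [AddSubgroup.mem_comap, h.map_lie (nX hg)]
      exact lie_mem_bb (ih.2 g hg hx) (ih.2 g hg hy)
    refine ⟨bb_closure_le ih.1 ih.1 ?_, h3⟩
    rintro _ ⟨hx, i1, x, x1, ⟨S, hS, xS⟩, rfl⟩ _ ⟨hy, i2, y, y1, ⟨T, hT, yT⟩, rfl⟩
    have e0 := lie_mem_bb hx hy
    rw [h.lie x1 y1] at e0 ⊢
    have e1 : h.pre (i1 + i2 + 1) (ld D (i + 1)) ⊓ ⁅S, T⁆ ≤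
        h.pre (i1 + i2 + 1) (SG X j {S | Sp p b A K d S} (ld D (i + 1))) := by
      refine coprime_abelem_gen_cent hA (normsI (le_normalizer_iff.2 fun g hg z hz => ⟨conj_mem_lcs (nX hg) hz.1, ?_⟩)
        (normsR (Sp.norm hS hA.abelian hn) (Sp.norm hT hA.abelian hn)))
        (coprimeSg (inf_le_right.trans (comm_subG (Sp.le hS) (Sp.le hT))) hc) fun H hH hi z hz => ?_
      · rw [← h.aut (nX hg) hz.1]; exact h3 g hg hz.2
      · obtain ⟨U, hU, l⟩ := Sp.closed hS hT hH hi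
        exact ⟨hz.1.1.1, AddSubgroup.subset_closure ⟨hz.1.1.2, _, z, hz.1.1.1, ⟨U, hU, l ⟨hz.1.2, hz.2⟩⟩, rfl⟩⟩
    exact (e1 ⟨⟨h.comm x1 y1, e0⟩, commutator_mem_commutator xS yT⟩).2

theorem LI.fix (h : LI X j Φ) (hg : g ∈ N[X]) (hc : (#X).Coprime (orderOf g)) (ha : a ∈ Γ X n)
    (e : Φ g (j n a) = j n a) : j n a ∈ LL X j (X ⊓ C1[g]) := by
  have hN : Γ X n ≤ N[Γ X (n + 1)] := (lowerCentralSeries_le_self X n).trans (norms_lcs (normG X) _)
  have hg' : zpowers g ≤ N[Γ X (n + 1)] := norms_lcs (zpowers_le.2 hg) _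
  have h1 := coprime_quotient_cent (Subgroup.lowerCentralSeries_antitone X (Nat.le_succ n)) hg'
    (coprimeSg (lowerCentralSeries_le_self X _) (by rwa [Nat.card_zpowers])) (Or.inl inferInstance)
  have e1 := conj_mem_lcs hg ha
  have h2 : a⁻¹ * (g * a * g⁻¹) ∈ Γ X (n + 1) := by
    rw [← h.zero (mul_mem (inv_mem ha) e1), h.mul (inv_mem ha) e1, h.inv ha, ← h.aut hg ha, e, neg_add_cancel]
  have gN := hg' (mem_zpowers g)
  have h3 : coset (Γ X (n + 1)) a ∈ (Γ X n ⊓ C[zpowers g]) /ᵍ Γ X (n + 1) := by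
    rw [h1, quotient_zpowers gN]
    refine ⟨mem_quotient (hN ha) ha, ?_⟩
    have e2 := (coset_eq_iff (hN ha) (hN e1)).2 h2
    rw [coset_mul (mul_mem gN (hN ha)) (inv_mem gN), coset_mul gN (hN ha), coset_inv gN, eq_mul_inv_iff_mul_eq] at e2
    rintro _ ⟨i, rfl⟩
    exact (Commute.zpow_right e2 i).symm
  obtain ⟨c, hc, cN, e3⟩ := mem_quotient_iff.1 h3
  have e4 := (coset_eq_iff cN (hN ha)).1 e3
  rw [← h.zero (mul_mem (inv_mem hc.1) ha), h.mul (inv_mem hc.1) ha, h.inv hc.1, neg_add_eq_zero] at e4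
  rw [← e4]
  exact mem_LL hc.1 ⟨lowerCentralSeries_le_self X n hc.1, cent_le_cent1 (mem_zpowers g) hc.2⟩

/-- the class bound -/
def bd (p k c d : ℕ) : ℕ :=
  ((c + 1) ^ (2 ^ p ^ k) ^ 3 ^ d) ^ kf (((c + 1) ^ (2 ^ p ^ k) ^ 3 ^ d) ^ (d + c)) p

theorem main [hp : Fact p.Prime] {k c : ℕ} (hA : Abelem p A) (hk : #A = p ^ k) (hr : rr b d + 2 ≤ k) (hn : A ≤ N[K])
    (hc : (#K).Coprime #A) (h : ∀ a ∈ A, a ≠ 1 → Γ (W b (K ⊓ C1[a]) d) c = ⊥) : Γ (W b K d) (bd p k c d) = ⊥ := by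
  have hp1 := hp.out.one_lt
  have hr1 : 1 ≤ rr b d := W_ind (P := fun i => 1 ≤ rr b i) b le_rfl (fun i h _ => by rw [rr_succ]; omega) d
  have hpK : (#K).Coprime p := hc.coprime_dvd_right (by rw [hk]; exact dvd_pow_self p (by omega))
  have nCa : ∀ a ∈ A, A ≤ N[K ⊓ C1[a]] := fun a ha =>
    normsI hn (norms_cent1 (le_cent1_iff.2 (sub_abelian_cent hA.abelian le_rfl ha)))
  have hcyc : ∀ B ≤ A, p ^ 2 ≤ #B → ¬ IsCyclic B := fun B hB h2 hcy => by
    have := h2.trans (Nat.le_of_dvd hp.out.pos (cyclic_abelem_card_dvd (abelemS hB hA) hcy))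
    nlinarith
  have hs : Group.IsSolvable K := by
    have hθ : Sig.SF p A fun a => K ⊓ C1[a] := ⟨hA, fun _ _ _ => inf_le_right,
      fun a _ _ => (p'nat_coprime hp.out).2 (coprimeSg inf_le_left hpK), fun a ha _ => nCa a ha,
      fun _ _ _ _ _ _ => inf_le_inf_right _ inf_le_left, fun a ha h1 => ⟨d + c, by
        rw [← map_subtype_inj, ← W_true, W_true_eq_bot (h a ha h1), Subgroup.map_bot]⟩⟩
    refine solvableS ?_ (hθ.complete (hk ▸ Nat.pow_le_pow_right hp.out.pos (by omega))).sol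
    exact coprime_abelian_gen_cent1 hA.abelian (hcyc A le_rfl (hk ▸ Nat.pow_le_pow_right hp.out.pos (by omega))) hn hc
      fun a ha h1 => Sig.le_Cl (θ := fun a => K ⊓ C1[a]) ha h1
  have hS : ∀ S, Sp p b A K d S → ∃ B ≤ A, ¬ IsCyclic B ∧ ∀ a ∈ B, S ≤ W b (K ⊓ C1[a]) d := fun S hS => by
    obtain ⟨B, hB, hi, l⟩ := hS.cent hp.out.pos
    refine ⟨B, hB, hcyc B hB ?_, fun a ha => l.trans (W_mono (inf_le_inf_left _ (cent_le_cent1 ha)) d)⟩
    refine Nat.le_of_mul_le_mul_right ?_ (Nat.pow_pos hp.out.pos (n := rr b d))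
    rw [← pow_add]
    exact (Nat.pow_le_pow_right hp.out.pos (by omega)).trans
      ((hk.symm.trans (card_mul_relIndex hB).symm).le.trans (Nat.mul_le_mul_left _ hi))
  set X := W b K d
  have hXK : X ≤ K := W_le d
  have nX : A ≤ N[X] := norms_W hn d
  have hg : Gn {S | Sp p b A K d S} X := gn_W hA hn hc d
  have hN : Group.IsNilpotent X := nil_of_gn hA.abelian hn hc hs hXK (norms_W (sup_le (normG K) hn) d) hg
    fun S h1 => by
      obtain ⟨B, hB, hcy, l⟩ := hS S h1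
      exact ⟨B, hB, hcy, fun a ha ha1 => ⟨_, isNilpotent_of_lowerCentralSeries_eq_bot (h a (hB ha) ha1),
        ⟨W_le d, norms_W (normG _) d⟩, l a ha⟩⟩
  obtain ⟨j, Φ, hL⟩ := exists_LI X
  have hf : (LL X j '' {S | Sp p b A K d S}).Finite := Set.toFinite _
  have hs' : (LL X j '' {S | Sp p b A K d S}).ncard ≤ (2 ^ p ^ k) ^ 3 ^ d :=
    (Set.ncard_image_le (Set.toFinite _)).trans (hk ▸ ncard_Sp d)
  have hU : ∀ U ∈ LL X j '' {S | Sp p b A K d S}, act ⊤ U (c + 1) = ⊥ := by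
    rintro _ ⟨S, h1, rfl⟩
    obtain ⟨B, hB, hcy, l⟩ := hS S h1
    have e1 : ⊤ ≤ ⨆ a : {a // a ∈ B ∧ a ≠ 1}, LL X j (K ⊓ C1[a.1]) := hL.top_le fun n =>
      coprime_abelian_gen_cent1 (abelemS hB hA).abelian hcy (hB.trans (norms_lcs nX n))
        (coprimeSg ((lowerCentralSeries_le_self X n).trans hXK) (hc.coprime_dvd_right (card_dvd_of_le hB)))
        fun a ha h1 z hz => ⟨hz.1, AddSubgroup.mem_iSup_of_mem ⟨a, ha, h1⟩
          (mem_LL hz.1 ⟨hXK (lowerCentralSeries_le_self X n hz.1), hz.2⟩)⟩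
    refine eq_bot_iff.2 ((act_mono e1 le_rfl _).trans ((act_iSup _ _).trans (iSup_le fun ⟨a, ha, h1⟩ => ?_)))
    have e2 : ∀ i, act (LL X j (K ⊓ C1[a])) (LL X j S) (i + 1) ≤ LL X j (Γ (W b (K ⊓ C1[a]) d) i) := fun i => by
      induction i with
      | zero => exact (hL.bb_LL _ _).trans (LL_mono ((commutator_mono le_rfl (l a ha)).trans
          (commg_subr (norms_W (normG _) d))))
      | succ i ih => exact (bb_mono ih le_rfl).trans ((hL.bb_LL _ _).trans (LL_mono (commutator_mono le_rfl (l a ha))))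
    exact (e2 c).trans (by rw [h a (hB ha) h1, hL.LL_bot])
  have hT : ⊤ ≤ SG X j {S | Sp p b A K d S} ⊤ := hL.top_le fun n =>
    (gn_lcs hA hn hc hXK nX hg n).trans (iSup₂_le fun S h1 z hz =>
      ⟨hz.1, AddSubgroup.subset_closure ⟨trivial, n, z, hz.1, ⟨S, h1, hz.2⟩, rfl⟩⟩)
  obtain ⟨⟨a, ha⟩, ha1⟩ := (ne_bot_iff_exists_ne_one (H := A)).1 fun e => by
    rw [e, card_bot] at hk
    have := Nat.pow_le_pow_right hp.out.pos (show 1 ≤ k by omega)
    rw [pow_one] at this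
    omega
  replace ha1 : a ≠ 1 := fun e => ha1 (Subtype.ext e)
  have hφp : ∀ x, (Φ a)^[p] x = x := fun x =>
    hL.ext (f := AddMonoidHom.mk' (Φ a)^[p] (iterate_map_add (Φ a) p)) (f' := AddMonoidHom.id _) (fun n z hz => by
      change (Φ a)^[p] (j n z) = j n z
      rw [hL.iter (nX ha) hz, hA.pow ha, one_mul, inv_one, mul_one]) x
  obtain ⟨N, hN'⟩ : ∃ N : ℕ, ∀ x : LieM.LG X, N • p • x = x := by
    obtain ⟨t, ht⟩ : ∃ t, (#K).totient = t + 1 := ⟨_, (Nat.succ_pred_eq_of_pos (Nat.totient_pos.2 Nat.card_pos)).symm⟩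
    refine ⟨p ^ t, hL.ext (f := (nsmulAddMonoidHom (p ^ t)).comp (nsmulAddMonoidHom p)) (f' := AddMonoidHom.id _)
      fun n z hz => ?_⟩
    change p ^ t • p • j n z = j n z
    rw [← mul_smul, ← pow_succ, ← hL.pow hz, ← ht, pow_eq_pow_iff_modEq.2 ((Nat.ModEq.pow_totient hpK.symm).of_dvd
      (K.orderOf_dvd_natCard (hXK (lowerCentralSeries_le_self X n hz)))), pow_one]
  let tr : LieM.LG X →+ LieM.LG X := AddMonoidHom.mk' (fun y => ∑ i ∈ Finset.range p, (Φ a)^[i] y) fun x y => by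
    simp only [iterate_map_add, Finset.sum_add_distrib]
  let M : AddSubgroup (LieM.LG X) := (Φ a).eqLocus (AddMonoidHom.id _)
  have hM : ∀ y, tr y ∈ M := fun y => by
    change Φ a (∑ i ∈ Finset.range p, (Φ a)^[i] y) = ∑ i ∈ Finset.range p, (Φ a)^[i] y
    have := Finset.sum_range_succ' (fun i => (Φ a)^[i] y) p
    rw [Finset.sum_range_succ, hφp] at this
    simp only [Function.iterate_succ_apply', Function.iterate_zero_apply] at this
    rw [map_sum]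
    exact (add_right_cancel this).symm
  have hM1 : ∀ D : AddSubgroup (LieM.LG X), (∀ n z S, z ∈ Γ X n → Sp p b A K d S → z ∈ S → j n z ∈ M → j n z ∈ D) →
      M ≤ D := fun D hD y hy => by
    have e1 : ⊤ ≤ D.comap tr := hT.trans ((AddSubgroup.closure_le _).2 (by
      rintro _ ⟨-, n, z, hz, ⟨S, h1, zS⟩, rfl⟩
      obtain ⟨c, hc, e⟩ := hL.tr (nX ha) (Sp.norm h1 hA.abelian hn ha) hz zS p
      have e' : tr (j n z) = j n c := e
      change tr (j n z) ∈ D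
      exact e' ▸ hD n c S hc.1 h1 hc.2 (e' ▸ hM _)))
    have e2 : tr y = p • y := by
      change ∑ i ∈ Finset.range p, (Φ a)^[i] y = _
      rw [Finset.sum_congr rfl fun i _ => Function.iterate_fixed (show Φ a y = y from hy) i]
      simp
    rw [← hN' y, ← e2]
    exact nsmul_mem (show tr y ∈ D from e1 (AddSubgroup.mem_top y)) _
  have hM2 : M ≤ LL X j (K ⊓ C1[a]) := hM1 _ fun n z _ hz _ _ e => LL_mono (inf_le_inf_right _ hXK)
    (hL.fix (nX ha) (coprimeSg hXK (hc.coprime_dvd_right (A.orderOf_dvd_natCard ha))) hz e)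
  have hM3 : ∀ i, ld M i ≤ LL X j (W true (K ⊓ C1[a]) i) := fun i => by
    induction i with
    | zero => exact hM2
    | succ i ih => exact (bb_mono ih ih).trans (hL.bb_LL _ _)
  have hM4 := solv_EJ (Nat.succ_pos c) _ hf hs' hU (d + c) M
    (bb_le fun x hx y hy => by
      change Φ a ⁅x, y⁆ = ⁅x, y⁆
      rw [hL.map_lie (nX ha), show Φ a x = x from hx, show Φ a y = y from hy])
    (eq_bot_iff.2 ((hM3 _).trans (by rw [W_true_eq_bot (h a ha ha1), hL.LL_bot]))) fun i =>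
    (hL.sg_ld hA hn hc hXK nX (hM1 _ fun n z S hz h1 zS e => AddSubgroup.subset_closure ⟨e, n, z, hz, ⟨S, h1, zS⟩, rfl⟩)
      (fun g hg y hy => by
        change Φ a (Φ g y) = Φ g y
        have := hL.ext (f := (Φ a).comp (Φ g)) (f' := (Φ g).comp (Φ a)) (fun n z hz => by
          change Φ a (Φ g (j n z)) = Φ g (Φ a (j n z))
          rw [hL.aut (nX hg) hz, hL.aut (nX ha) hz, hL.aut (nX ha) (conj_mem_lcs (nX hg) hz),
            hL.aut (nX hg) (conj_mem_lcs (nX ha) hz)]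
          have e : a * g = g * a := mem_cent.1 (hA.cent hg) a ha
          congr 1
          calc a * (g * z * g⁻¹) * a⁻¹ = a * g * z * (a * g)⁻¹ := by group
            _ = _ := by rw [e]; group) y
        exact this.trans (congrArg (Φ g) hy)) i).1.trans (SG_le _ _)
  have h5 := krek (Φ a) (hL.map_lie (nX ha)) hφp N hN' hM hM4
  have h6 := solv_EJ (Nat.succ_pos c) _ hf hs' hU _ ⊤ le_top h5 fun i =>
    (hL.sg_ld hA hn hc hXK nX hT (fun _ _ => le_top) i).1.trans (SG_le _ _)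
  by_contra hne
  refine (nil_comm_properl hN (lowerCentralSeries_le_self X _) hne le_rfl (norms_lcs (normG X) _)).not_ge fun z hz => ?_
  have := (hL.lcs_le _ hz).2
  rw [show act ⊤ ⊤ (bd p k c d) = ⊥ from h6, AddSubgroup.mem_bot] at this
  exact (hL.zero hz).1 this

open Cfsg.Agent.Transfer SemidirectProduct in
theorem main' [hp : Fact p.Prime] {k c : ℕ} (hG : (Nat.card G).Coprime p) {A : Subgroup (MulAut G)} (hA : Abelem p A)
    (hk : #A = p ^ k) (hr : rr b d + 2 ≤ k)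
    (h : ∀ a ∈ A, a ≠ 1 → Γ (W b ((a : MulAut G).toMonoidHom.eqLocus (MonoidHom.id G)) d) c = ⊥) :
    Γ (W b (⊤ : Subgroup G) d) (bd p k c d) = ⊥ := by
  have h1 := main (b := b) (d := d) (c := c) (A := sdR A.subtype ⊤) (K := sdL A.subtype ⊤)
    (abelem_map _ (subgroupOf_self A ▸ abelem_subgroupOf A hA)) (by rw [card_sdR, card_top, hk]) hr
    (sdR_le_normalizer_top _ ⊤) (by rw [card_sdR, card_sdL, card_top, card_top, hk]; exact hG.pow_right k) (by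
      rintro _ ⟨a, -, rfl⟩ ha1
      have e : sdL A.subtype ⊤ ⊓ C1[(inr a : G ⋊[A.subtype] A)] =
          sdL A.subtype ((a : MulAut G).toMonoidHom.eqLocus (MonoidHom.id G)) := by
        refine le_antisymm ?_ ?_
        · rintro _ ⟨⟨g, -, rfl⟩, hg⟩
          exact (inl_mem_sdL _).2 ((inr_mul_inl_eq_iff A.subtype).1 (mem_centralizer_singleton_iff.1 hg).symm)
        · rintro _ ⟨g, hg, rfl⟩
          exact ⟨(inl_mem_sdL _).2 trivial, mem_centralizer_singleton_iff.2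
            ((inr_mul_inl_eq_iff A.subtype).2 hg).symm⟩
      rw [e, ← W_map, ← map_lowerCentralSeries, h a a.2 fun e => ha1 (by rw [show a = 1 from Subtype.ext e, map_one]),
        Subgroup.map_bot])
  rwa [← W_map, ← map_lowerCentralSeries, map_eq_bot_iff_of_injective _ inl_injective] at h1

theorem rr_true (d : ℕ) : rr true d = 2 ^ d := by
  induction d with
  | zero => rfl
  | succ d ih => rw [rr, ih]; simp [ih]; ring

theorem rr_false (d : ℕ) : rr false d = d + 1 := by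
  induction d with
  | zero => rfl
  | succ d ih => rw [rr, ih]; simp

end Cfsg.Agent.Shum
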