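import Cfsg.Agent.BG.S3Gen
import Cfsg.Agent.BG.S1

/-! Special subgroups for a coprime elementary abelian operator group (Acciarri–Shumyatsky), generation by them,
and a nilpotency criterion (Ward). -/

set_option autoImplicit false

namespace Cfsg.Agent.Shum
open Subgroup Cfsg.Agent.BG
open scoped commutatorElement

variable {G : Type*} [Group G] {A B H K S X Y J : Subgroup G} {p i : ℕ} {b : Bool}

/-- second index of the recursion -/
def ee (b : Bool) (i : ℕ) : ℕ := if b then i else 0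

/-- derived series (`b = true`) or lower central series (`b = false`) -/
def W (b : Bool) (K : Subgroup G) : ℕ → Subgroup G
  | 0 => K
  | i + 1 => ⁅W b K i, if b then W b K i else K⁆

/-- corank -/
def rr (b : Bool) : ℕ → ℕ
  | 0 => 1
  | i + 1 => rr b i + if b then rr b i else 1

theorem W_succ (b : Bool) (K : Subgroup G) (i : ℕ) : W b K (i + 1) = ⁅W b K i, W b K (ee b i)⁆ := by cases b <;> rfl
theorem rr_succ (b : Bool) (i : ℕ) : rr b (i + 1) = rr b i + rr b (ee b i) := by cases b <;> rfl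
theorem ee_le (b : Bool) (i : ℕ) : ee b i ≤ i := by cases b <;> simp [ee]

theorem W_ind {P : ℕ → Prop} (b : Bool) (h0 : P 0) (hs : ∀ i, P i → P (ee b i) → P (i + 1)) (i : ℕ) : P i := by
  induction i with
  | zero => exact h0
  | succ i ih => exact hs i ih (by cases b; exacts [h0, ih])

theorem W_le (i : ℕ) : W b K i ≤ K :=
  W_ind (P := fun i => W b K i ≤ K) b le_rfl (fun i h h' => W_succ b K i ▸ comm_subG h h') i

theorem norms_W (h : X ≤ N[K]) (i : ℕ) : X ≤ N[W b K i] :=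
  W_ind (P := fun i => X ≤ N[W b K i]) b h (fun i h h' => W_succ b K i ▸ normsR h h') i

theorem W_mono (h : X ≤ Y) (i : ℕ) : W b X i ≤ W b Y i :=
  W_ind (P := fun i => W b X i ≤ W b Y i) b h
    (fun i h h' => by rw [W_succ, W_succ]; exact commutator_mono h h') i

theorem W_anti {j : ℕ} (h : j ≤ i) : W b K i ≤ W b K j := by
  induction h with
  | refl => exact le_rfl
  | step _ ih =>
    rw [W_succ]
    exact (commg_subl ((W_le _).trans (norms_W (normG K) _))).trans ih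

/-- special subgroups -/
inductive Sp (p : ℕ) (b : Bool) (A K : Subgroup G) : ℕ → Subgroup G → Prop
  | zero {H : Subgroup G} : H ≤ A → H.relIndex A ∣ p → Sp p b A K 0 (K ⊓ C[H])
  | succ {i : ℕ} {S T H : Subgroup G} : Sp p b A K i S → Sp p b A K (ee b i) T → H ≤ A → H.relIndex A ∣ p →
      Sp p b A K (i + 1) (⁅S, T⁆ ⊓ C[H])

theorem Sp.le (h : Sp p b A K i S) : S ≤ K := by
  induction h with
  | zero => exact inf_le_left
  | succ _ _ _ _ i1 i2 => exact inf_le_left.trans (comm_subG i1 i2)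

theorem Sp.norm (h : Sp p b A K i S) (hA : IsMulCommutative A) (hn : A ≤ N[K]) : A ≤ N[S] := by
  induction h with
  | zero hH => exact normsI hn (norms_cent (cents_norm (sub_abelian_cent hA hH)))
  | succ _ _ hH _ i1 i2 => exact normsI (normsR i1 i2) (norms_cent (cents_norm (sub_abelian_cent hA hH)))

theorem Sp.down (i : ℕ) : ∀ S, Sp p b A K (i + 1) S → ∃ T, Sp p b A K i T ∧ S ≤ T := by
  induction i with
  | zero =>
    intro S h
    cases h with
    | succ h1 h2 hH hi => exact ⟨_, .zero hH hi, inf_le_inf_right _ (comm_subG h1.le h2.le)⟩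
  | succ i ih =>
    intro S h
    cases h with
    | @succ _ S1 S2 H h1 h2 hH hi =>
      obtain ⟨T1, t1, l1⟩ := ih _ h1
      obtain ⟨T2, t2, l2⟩ : ∃ T, Sp p b A K (ee b i) T ∧ S2 ≤ T := by
        cases b
        · exact ⟨_, h2, le_rfl⟩
        · exact ih _ h2
      exact ⟨_, .succ t1 t2 hH hi, inf_le_inf_right _ (commutator_mono l1 l2)⟩

theorem Sp.down_le {j : ℕ} (hj : j ≤ i) : ∀ S, Sp p b A K i S → ∃ T, Sp p b A K j T ∧ S ≤ T := by
  induction hj with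
  | refl => exact fun S h => ⟨S, h, le_rfl⟩
  | step _ ih =>
    intro S h
    obtain ⟨T, t, l⟩ := Sp.down _ S h
    obtain ⟨T', t', l'⟩ := ih T t
    exact ⟨T', t', l.trans l'⟩

theorem Sp.closed {T : Subgroup G} (h : Sp p b A K i S) (h' : Sp p b A K i T) (hH : H ≤ A) (hi : H.relIndex A ∣ p) :
    ∃ U, Sp p b A K i U ∧ ⁅S, T⁆ ⊓ C[H] ≤ U := by
  obtain ⟨T', t', l'⟩ := Sp.down_le (ee_le b i) T h'
  obtain ⟨U, u, l⟩ := Sp.down _ _ (.succ h t' hH hi)
  exact ⟨U, u, (inf_le_inf_right _ (commutator_mono le_rfl l')).trans l⟩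

theorem Sp.cent (hp : 0 < p) (h : Sp p b A K i S) : ∃ B ≤ A, B.relIndex A ≤ p ^ rr b i ∧ S ≤ W b (K ⊓ C[B]) i := by
  induction h with
  | zero hH hi => exact ⟨_, hH, by simpa [rr] using Nat.le_of_dvd hp hi, le_rfl⟩
  | succ _ _ _ _ i1 i2 =>
    obtain ⟨B1, h1, r1, l1⟩ := i1
    obtain ⟨B2, -, r2, l2⟩ := i2
    refine ⟨B1 ⊓ B2, inf_le_left.trans h1, ?_, inf_le_left.trans ?_⟩
    · rw [rr_succ, pow_add]
      exact relIndex_inf_le.trans (Nat.mul_le_mul r1 r2)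
    · rw [W_succ]
      exact commutator_mono (l1.trans (W_mono (inf_le_inf_left _ (centS inf_le_left)) _))
        (l2.trans (W_mono (inf_le_inf_left _ (centS inf_le_right)) _))

variable [Finite G]

theorem ncard_sub (A : Subgroup G) : {H : Subgroup G | H ≤ A}.ncard ≤ 2 ^ #A := by
  classical
  haveI := Fintype.ofFinite A
  rw [← Nat.card_coe_set_eq, Nat.card_eq_fintype_card (α := A), ← Fintype.card_set, ← Nat.card_eq_fintype_card]
  refine Nat.card_le_card_of_injective (fun H => {a : A | (a : G) ∈ H.1}) fun H H' e => Subtype.ext ?_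
  ext x
  exact ⟨fun h => (Set.ext_iff.1 e ⟨x, H.2 h⟩).1 h, fun h => (Set.ext_iff.1 e ⟨x, H'.2 h⟩).2 h⟩

theorem ncard_Sp (i : ℕ) : {S | Sp p b A K i S}.ncard ≤ (2 ^ #A) ^ 3 ^ i := by
  refine W_ind (P := fun i => {S | Sp p b A K i S}.ncard ≤ (2 ^ #A) ^ 3 ^ i) b ?_ (fun i h h' => ?_) i
  · refine (Set.ncard_le_ncard (t := (fun H : Subgroup G => K ⊓ C[H]) '' {H | H ≤ A}) ?_).trans
      ((Set.ncard_image_le (Set.toFinite _)).trans (by simpa using ncard_sub A))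
    intro S hS
    cases hS with
    | zero hH _ => exact ⟨_, hH, rfl⟩
  · refine (Set.ncard_le_ncard (t := (fun x : (Subgroup G × Subgroup G) × Subgroup G => ⁅x.1.1, x.1.2⁆ ⊓ C[x.2]) ''
      (({S | Sp p b A K i S} ×ˢ {S | Sp p b A K (ee b i) S}) ×ˢ {H | H ≤ A})) ?_).trans ((Set.ncard_image_le (Set.toFinite _)).trans ?_)
    · intro S hS
      cases hS with
      | succ h1 h2 hH _ => exact ⟨((_, _), _), ⟨⟨h1, h2⟩, hH⟩, rfl⟩
    · rw [Set.ncard_prod, Set.ncard_prod]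
      have e0 : 0 < 2 ^ #A := by positivity
      have e1 := h'.trans (Nat.pow_le_pow_right e0 (Nat.pow_le_pow_right (by norm_num) (ee_le b i)))
      have e2 := (ncard_sub A).trans (Nat.le_self_pow (n := 3 ^ i) (by positivity) _)
      refine (Nat.mul_le_mul (Nat.mul_le_mul h e1) e2).trans (le_of_eq ?_)
      rw [← pow_add, ← pow_add]; congr 1; ring

/-- generation by intersections with the members of a family -/
def Gn (𝒜 : Set (Subgroup G)) (X : Subgroup G) : Prop := X ≤ ⨆ S ∈ 𝒜, X ⊓ S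

theorem comm_le_of_gn {𝒜 ℬ : Set (Subgroup G)} (hX : Gn 𝒜 X) (hY : Gn ℬ Y) (nX : X ≤ N[J]) (nY : Y ≤ N[J])
    (h : ∀ S ∈ 𝒜, ∀ T ∈ ℬ, ⁅X ⊓ S, Y ⊓ T⁆ ≤ J) : ⁅X, Y⁆ ≤ J := by
  refine (quotient_cents2 nX nY).1 ((sub_quotient_pre nX).2 (hX.trans (iSup₂_le fun S hS => ?_)))
  refine (sub_quotient_pre (inf_le_left.trans nX)).1 (cents_symm ((sub_quotient_pre nY).2
    (hY.trans (iSup₂_le fun T hT => ?_))))
  exact (sub_quotient_pre (inf_le_left.trans nY)).1 (cents_symm (quotient_cents2r (h S hS T hT)))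

theorem gn_comm [Fact p.Prime] (hA : Abelem p A) (hc : (#K).Coprime #A) {𝒜 ℬ 𝒞 : Set (Subgroup G)}
    (h0 : ∀ S ∈ 𝒜 ∪ ℬ ∪ 𝒞, A ≤ N[S])
    (h1 : ∀ S ∈ 𝒜 ∪ 𝒞, ∀ T ∈ ℬ, ∀ H ≤ A, H.relIndex A ∣ p → ∃ U ∈ 𝒞, ⁅S, T⁆ ⊓ C[H] ≤ U)
    (hXY : X ≤ Y) (hYK : Y ≤ K) (nYX : Y ≤ N[X]) (nX : A ≤ N[X]) (nY : A ≤ N[Y]) (hX : Gn 𝒜 X) (hY : Gn ℬ Y) :
    Gn 𝒞 ⁅X, Y⁆ := by
  have key : ∀ S ∈ 𝒜 ∪ 𝒞, ∀ T ∈ ℬ, ⁅X, Y⁆ ⊓ ⁅S, T⁆ ≤ ⨆ U ∈ 𝒞, ⁅X, Y⁆ ⊓ U := fun S hS T hT =>
    coprime_abelem_gen_cent hA (normsI (normsR nX nY) (normsR (h0 S (by rcases hS with h | h <;> simp [h]))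
      (h0 T (by simp [hT])))) (coprimeSg (inf_le_left.trans ((comm_subG hXY le_rfl).trans hYK)) hc) fun H hH hi => by
      obtain ⟨U, hU, l⟩ := h1 S hS T hT H hH hi
      exact le_iSup₂_of_le U hU (by rw [inf_assoc]; exact inf_le_inf_left _ l)
  have nZ : Y ≤ N[⁅X, Y⁆] := normsR nYX (normG Y)
  have nJ : Y ≤ N[⨆ U ∈ 𝒞, ⁅X, Y⁆ ⊓ U] := hY.trans (iSup₂_le fun T hT => le_normalizer_iff.2 fun t ht => by
    have : ⨆ U ∈ 𝒞, ⁅X, Y⁆ ⊓ U ≤ (⨆ U ∈ 𝒞, ⁅X, Y⁆ ⊓ U).comap (MulAut.conj t).toMonoidHom := iSup₂_le fun U hU k hk => by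
      have e : t * k * t⁻¹ = ⁅k, t⁆⁻¹ * k := by simp only [commutatorElement_def]; group
      rw [mem_comap, MulEquiv.coe_toMonoidHom, MulAut.conj_apply, e]
      refine mul_mem (inv_mem (key U (Or.inr hU) T hT ⟨?_, commutator_mem_commutator hk.2 ht.2⟩))
        (le_iSup₂_of_le (f := fun U (_ : U ∈ 𝒞) => ⁅X, Y⁆ ⊓ U) U hU le_rfl hk)
      exact commg_subl nZ (commutator_mem_commutator hk.1 ht.1)
    exact fun k hk => this hk)
  exact comm_le_of_gn hX hY (hXY.trans nJ) nJ fun S hS T hT =>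
    (le_inf (commutator_mono inf_le_left inf_le_left) (commutator_mono inf_le_right inf_le_right)).trans
      (key S (Or.inl hS) T hT)

theorem gn_W [Fact p.Prime] (hA : Abelem p A) (hn : A ≤ N[K]) (hc : (#K).Coprime #A) (i : ℕ) :
    Gn {S | Sp p b A K i S} (W b K i) := by
  refine W_ind (P := fun i => Gn {S | Sp p b A K i S} (W b K i)) b ?_ (fun i h h' => ?_) i
  · exact coprime_abelem_gen_cent hA hn hc fun H hH hi =>
      le_iSup₂_of_le (K ⊓ C[H]) (Sp.zero hH hi) (le_inf inf_le_left le_rfl)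
  · rw [W_succ]
    refine gn_comm hA hc (fun S hS => ?_) (fun S hS T hT H hH hi => ?_) (W_anti (ee_le b i)) (W_le _)
      ((W_le _).trans (norms_W (normG K) _)) (norms_W hn _) (norms_W hn _) h h'
    · rcases hS with (h | h) | h <;> exact Sp.norm h hA.abelian hn
    · rcases hS with h | h
      · exact ⟨_, Sp.succ h hT hH hi, le_rfl⟩
      · obtain ⟨S', s', l⟩ := Sp.down _ _ h
        exact ⟨_, Sp.succ s' hT hH hi, inf_le_inf_right _ (commutator_mono l le_rfl)⟩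

omit [Finite G] in
theorem norms_lcs (h : A ≤ N[X]) (n : ℕ) : A ≤ N[X.lowerCentralSeries n] := by
  induction n with
  | zero => exact h
  | succ n ih => exact normsR ih h

theorem gn_lcs [Fact p.Prime] (hA : Abelem p A) (hn : A ≤ N[K]) (hc : (#K).Coprime #A) (hXK : X ≤ K) (nX : A ≤ N[X])
    (hX : Gn {S | Sp p b A K i S} X) (n : ℕ) : Gn {S | Sp p b A K i S} (X.lowerCentralSeries n) := by
  induction n with
  | zero => exact hX
  | succ n ih =>
    refine gn_comm hA hc (fun S hS => ?_) (fun S hS T hT H hH hi => ?_) (lowerCentralSeries_le_self X n) hXK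
      (norms_lcs (normG X) n) (norms_lcs nX n) nX ih hX
    · rcases hS with (h | h) | h <;> exact Sp.norm h hA.abelian hn
    · rcases hS with h | h <;> exact Sp.closed h hT hH hi

theorem chief_cent (hA : IsMulCommutative A) (hn : A ≤ N[K]) (hc : (#K).Coprime #A) (hs : Group.IsSolvable K)
    {𝒜 : Set (Subgroup G)} (hXK : X ≤ K) (hX : K ⊔ A ≤ N[X]) (hg : Gn 𝒜 X)
    (hF : ∀ S ∈ 𝒜, ∃ B ≤ A, ¬ IsCyclic B ∧ ∀ a ∈ B, a ≠ 1 → ∃ D : Subgroup G, Group.IsNilpotent D ∧ D ⊴ K ⊓ C1[a] ∧ S ≤ D)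
    {V U : Subgroup G} (h : ChiefF (K ⊔ A) V U) (hU : U ≤ K) {n : ℕ} (hl : X.lowerCentralSeries n ≤ U) :
    ⁅U, X⁆ ≤ V := by
  obtain ⟨q, hq, hab⟩ := sol_chief_abelem (solvableS hU hs) h
  haveI := Fact.mk hq
  have nK : K ≤ N[V] := le_sup_left.trans h.nV
  have nU : U ≤ N[V] := hU.trans nK
  have nXV : X ≤ N[V] := hXK.trans nK
  set C := coquo V C[U /ᵍ V]
  have hC : ∀ Y ≤ K, ⁅U, Y⁆ ≤ V → Y ≤ C := fun Y hY h =>
    (sub_quotient_pre (hY.trans nK)).1 (cents_symm (quotient_cents2r h))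
  have nC : K ⊔ A ≤ N[C] := norms_cosetpre h.nV (norms_cent (quotient_norms V h.nU))
  have nXC : X ≤ N[C] := hXK.trans (le_sup_left.trans nC)
  have hUC : U ≤ C := (sub_quotient_pre nU).1 hab.cent
  have h1 : Group.IsNilpotent (X /ᵍ C) := by
    have : ∀ j, (X /ᵍ C).lowerCentralSeries j = X.lowerCentralSeries j /ᵍ C := fun j => by
      induction j with
      | zero => rfl
      | succ j ih =>
        rw [Subgroup.lowerCentralSeries_succ, Subgroup.lowerCentralSeries_succ, ih,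
          quotientR ((lowerCentralSeries_le_self X j).trans nXC) nXC]
    exact isNilpotent_of_lowerCentralSeries_eq_bot (n := n) (by rw [this]; exact quotientS1 (hl.trans hUC))
  have h2 : ∀ S ∈ 𝒜, PiGrp {q} ((X ⊓ S) /ᵍ C) := fun S hS => by
    obtain ⟨B, hB, hcy, hD⟩ := hF S hS
    have hne : B ≠ ⊥ := fun e => hcy (by rw [e]; infer_instance)
    obtain ⟨⟨a0, ha0⟩, ha1⟩ := (ne_bot_iff_exists_ne_one).1 hne
    obtain ⟨D0, nD0, -, l0⟩ := hD a0 ha0 fun e => ha1 (Subtype.ext e)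
    have hnil : Group.IsNilpotent (X ⊓ S : Subgroup G) := nilpotentS (inf_le_right.trans l0) nD0
    have hH := nilpotent_pcore_Hall {q}ᶜ hnil
    have e1 : Op' q (X ⊓ S) ≤ C := by
      have hR : Op' q (X ⊓ S) ≤ K := (pcore_sub _ _).trans (inf_le_left.trans hXK)
      refine hC _ hR ((quotient_cents2 nU (hR.trans nK)).1 ((sub_quotient_pre nU).2 ?_))
      refine coprime_abelian_gen_cent1 (abelian_of_cent (sub_abelian_cent2 hA hB hB)) hcy
        (hB.trans (le_sup_right.trans h.nU)) (coprimeSg hU (hc.coprime_dvd_right (card_dvd_of_le hB))) fun a ha ha1 => ?_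
      obtain ⟨D, nD, hDn, l⟩ := hD a ha ha1
      refine (sub_quotient_pre (inf_le_left.trans nU)).1 (quotient_cents2r ?_)
      have e2 : Op' q (X ⊓ S) ≤ Op' q D := sub_normal_Hall (nilpotent_pcore_Hall _ nD) (pcore_normal _ _)
        ((pcore_sub _ _).trans (inf_le_right.trans l)) (pcore_pgroup _ _)
      have e3 : ⁅U ⊓ C1[a], Op' q (X ⊓ S)⁆ ≤ U ⊓ Op' q D := le_inf
        ((commutator_mono inf_le_left le_rfl).trans (commg_subl (hR.trans (le_sup_left.trans h.nU))))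
        ((commutator_mono le_rfl e2).trans (commg_subr ((inf_le_inf_right _ hU).trans (hDn.pcore _).norm)))
      refine e3.trans ((quotient_sub1 (inf_le_left.trans nU)).1 ?_)
      have e5 : PiGrp {q} ((U ⊓ Op' q D) /ᵍ V) := pgroupS (quotientS V inf_le_left) (pi_pgroup hab.pg rfl)
      have e6 : PiGrp {q}ᶜ ((U ⊓ Op' q D) /ᵍ V) := quotient_pgroup V (pgroupS inf_le_right (pcore_pgroup _ _))
      have e4 := coprime_TI (pnat_coprime e5 e6)
      rwa [inf_idem] at e4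
    have e2 := hH.idx
    rw [compl_compl] at e2
    show PiNat {q} #((X ⊓ S) /ᵍ C)
    rw [card_quotient (inf_le_left.trans nXC)]
    exact e2.of_dvd (relIndex_dvd_of_le_left _ e1)
  have h3 : PiGrp {q} (X /ᵍ C) := pgroupS ((sub_quotient_pre nXC).2 (hg.trans (iSup₂_le fun S hS =>
    (sub_quotient_pre (inf_le_left.trans nXC)).1 (sub_normal_Hall (nilpotent_pcore_Hall {q} h1) (pcore_normal _ _)
      (quotientS C inf_le_left) (h2 S hS))))) (pcore_pgroup _ _)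
  obtain ⟨Q, hQ⟩ := Sylow_exists q X
  have h4 : C ⊓ X ⊔ Q = X := sup_eq_of_coprime_idx inf_le_right hQ.le (by
    rw [inf_relIndex_right, ← card_quotient nXC]
    exact pnat_coprime h3 hQ.idx)
  have h5 := pgroup_cent_ne_bot (quotient_pgroup V hQ.pi).pg hab.pg
    (quotient_norms V (hQ.le.trans (hXK.trans (le_sup_left.trans h.nU)))) (chief_factor_minnormal h).ne
  have h6 : U /ᵍ V ⊓ C[Q /ᵍ V] ≤ U /ᵍ V ⊓ C[X /ᵍ V] := le_inf inf_le_left (cents_symm (by
    conv_lhs => rw [← h4, quotientY (inf_le_right.trans nXV) (hQ.le.trans nXV)]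
    exact sup_le (((sub_quotient_pre (inf_le_right.trans nXV)).2 inf_le_left).trans (centS inf_le_left))
      (cents_symm inf_le_right)))
  have h7 := (chief_factor_minnormal h).map_eq (U := U /ᵍ V ⊓ C[X /ᵍ V]) inf_le_left
    (normsI (chief_factor_minnormal h).norm (norms_cent (quotient_norms V hX))) fun e => h5 (le_bot_iff.1 (e ▸ h6))
  exact (quotient_cents2 nU nXV).1 (h7 ▸ inf_le_right)

theorem nil_of_gn (hA : IsMulCommutative A) (hn : A ≤ N[K]) (hc : (#K).Coprime #A) (hs : Group.IsSolvable K)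
    {𝒜 : Set (Subgroup G)} (hXK : X ≤ K) (hX : K ⊔ A ≤ N[X]) (hg : Gn 𝒜 X)
    (hF : ∀ S ∈ 𝒜, ∃ B ≤ A, ¬ IsCyclic B ∧ ∀ a ∈ B, a ≠ 1 → ∃ D : Subgroup G, Group.IsNilpotent D ∧ D ⊴ K ⊓ C1[a] ∧ S ≤ D) :
    Group.IsNilpotent X := by
  by_contra hN
  refine chief_ind (P := fun V => ¬ ∃ n, X.lowerCentralSeries n ≤ V) (normal_bot _) (normalYl hn) bot_le
    (fun ⟨n, h⟩ => hN (isNilpotent_of_lowerCentralSeries_eq_bot (le_bot_iff.1 h)))
    (fun V U _ hU h hV ⟨n, hl⟩ => hV ⟨n + 1, ?_⟩) ⟨0, hXK⟩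
  exact (commutator_mono hl le_rfl).trans (chief_cent hA hn hc hs hXK hX hg hF h hU hl)

end Cfsg.Agent.Shum
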